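import Cfsg.Agent.Chev.Bruhat
import Cfsg.Agent.Chev.TorusCard

/-!
The `r`-part of the diagonal subgroup: a Sylow subgroup whose normaliser is monomial, under numerical
hypotheses.
-/

set_option autoImplicit false
set_option linter.unusedSectionVars false

universe u

namespace Cfsg.Agent.Chars2.Homocyclic

open Cfsg.Lie Cfsg.Agent.Chev
open scoped Matrix MatrixGroups

variable {D : ChevalleyDatum} {F : Type u} [Field F] (C : Cert.{u} D)
include C

/-- The canonical form with a word as monomial factor. -/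
theorem exists_canon {M : CoxeterMatrix (Fin D.rank)} (hM : CoxOK D M) {g : GL D.Idx F}
    (hg : g ∈ D.group F) :
    ∃ L : List (Fin D.rank), ∃ a ∈ D.posUnipotent F, ∃ h ∈ D.diagonalSubgroup F,
      ∃ u ∈ spanGroup D F (Inverts D F (C.nWordElt F (L.map Fin.val))),
        g = a * h * C.nWordElt F (L.map Fin.val) * u := by
  obtain ⟨n, hn, b₁, hb₁, b₂, hb₂, e⟩ := C.exists_bruhat hM hg
  obtain ⟨b, hb, u, hu, e'⟩ := C.exists_canonical hM hn (g := g) ⟨b₁, hb₁, b₂, hb₂, e⟩
  obtain ⟨L, d, hd, en⟩ := C.exists_word hM hn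
  obtain ⟨a, ha, h, hh, eb⟩ := C.mem_borel.mp hb
  have hw : C.nWordElt F (L.map Fin.val) ∈ D.monomialSubgroup F := C.nWordElt_mem (C.fin_word_lt L)
  refine ⟨L, a, ha, h * (C.nWordElt F (L.map Fin.val) * d * (C.nWordElt F (L.map Fin.val))⁻¹),
    mul_mem hh (C.monomial_conj_diagonal hw hd), u, ?_, ?_⟩
  · exact C.span_mono (fun r hr => by rw [en] at hr; exact (C.inverts_mul_diagonal hd r).mp hr) hu
  · rw [e', ← eb, en]; group

theorem canon_unique {n a a' h h' u u' : GL D.Idx F} (ha : a ∈ D.posUnipotent F)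
    (ha' : a' ∈ D.posUnipotent F) (hh : h ∈ D.diagonalSubgroup F) (hh' : h' ∈ D.diagonalSubgroup F)
    (hu : u ∈ spanGroup D F (Inverts D F n)) (hu' : u' ∈ spanGroup D F (Inverts D F n))
    (e : a * h * n * u = a' * h' * n * u') : a = a' ∧ h = h' ∧ u = u' := by
  obtain ⟨h1, h2⟩ := C.canonical_unique (mul_mem (C.pos_le_borel ha) (C.diagonal_le_borel hh))
    (mul_mem (C.pos_le_borel ha') (C.diagonal_le_borel hh')) hu hu' e
  have e2 : a'⁻¹ * a = h' * h⁻¹ := by
    have : a'⁻¹ * (a * h) = h' := by rw [h1]; group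
    rw [← this]; group
  have hm : a'⁻¹ * a ∈ (⊥ : Subgroup (GL D.Idx F)) := by
    rw [← C.posUnipotent_inf_diagonal]
    exact Subgroup.mem_inf.mpr ⟨mul_mem (inv_mem ha') ha, e2 ▸ mul_mem hh' (inv_mem hh)⟩
  have haa : a = a' := (inv_mul_eq_one.mp (Subgroup.mem_bot.mp hm)).symm
  exact ⟨haa, mul_left_cancel (haa ▸ h1), h2⟩

omit C in
theorem dMat_pow (χ : ℕ → F) (n : ℕ) : dMat D χ ^ n = dMat D (χ ^ n) := by
  induction n with
  | zero => rw [pow_zero, pow_zero, dMat_one]
  | succ n ih => rw [pow_succ, pow_succ, ih, dMat_mul]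

omit C in
theorem dMat_entry {χ : ℕ → F} {g : GL D.Idx F} (hg : (g : Matrix D.Idx D.Idx F) = dMat D χ)
    {s : ℕ} (hs : s < D.nroots) :
    (g : Matrix D.Idx D.Idx F) (Sum.inr ⟨s, hs⟩) (Sum.inr ⟨s, hs⟩) = χ s := by
  rw [hg]; simp [dMat]

/-- Conjugating an ordered product by a diagonal element. -/
theorem diag_conj_prodU {g : GL D.Idx F} {χ : ℕ → F} (hχ : IsChar D χ)
    (hg : (g : Matrix D.Idx D.Idx F) = dMat D χ) (t : ℕ → F) :
    g * C.prodU t * g⁻¹ = C.prodU fun r => χ r * t r := by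
  have key : ∀ L : List ℕ, (∀ r ∈ L, r < D.nroots) →
      g * C.wu (L.map fun r => (r, t r)) * g⁻¹ = C.wu (L.map fun r => (r, χ r * t r)) := by
    intro L
    induction L with
    | nil => intro _; simp [Cert.wu]
    | cons r L ih =>
      intro hL
      have hc : g * C.xu r (t r) = C.xu r (χ r * t r) * g :=
        Units.ext (by simp [hg, C.dMat_conj hχ (hL r List.mem_cons_self) (t r)])
      rw [List.map_cons, List.map_cons, C.wu_cons, C.wu_cons,
        ← ih fun x hx => hL x (List.mem_cons_of_mem _ hx), ← mul_assoc, hc]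
      group
  exact key D.posRoots fun r hr => ((Cert.mem_posRoots).mp hr).1

variable [Fintype F] (r : ℕ) [Fact r.Prime]

/-- The `r`-part of the diagonal subgroup. -/
def torusPart : Subgroup (GL D.Idx F) where
  carrier := {t | t ∈ D.diagonalSubgroup F ∧ t ^ r ^ padicValNat r (Nat.card (D.diagonalSubgroup F)) = 1}
  one_mem' := ⟨one_mem _, one_pow _⟩
  mul_mem' := fun {a b} ha hb => ⟨mul_mem ha.1 hb.1, by
    rw [(show Commute a b from C.diagonal_comm ha.1 hb.1).mul_pow, ha.2, hb.2, one_mul]⟩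
  inv_mem' := fun {a} ha => ⟨inv_mem ha.1, by rw [inv_pow, ha.2, inv_one]⟩

theorem mem_torusPart {t : GL D.Idx F} :
    t ∈ torusPart (F := F) C r ↔
      t ∈ D.diagonalSubgroup F ∧ t ^ r ^ padicValNat r (Nat.card (D.diagonalSubgroup F)) = 1 := Iff.rfl

theorem card_torusPart :
    Nat.card (torusPart (F := F) C r) = r ^ padicValNat r (Nat.card (D.diagonalSubgroup F)) := by
  classical
  have hr : r.Prime := Fact.out
  set w := padicValNat r (Nat.card (D.diagonalSubgroup F)) with hw
  have hpg : IsPGroup r (torusPart (F := F) C r) := fun x => ⟨w, Subtype.ext x.2.2⟩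
  obtain ⟨k, hk⟩ := IsPGroup.iff_card.mp hpg
  have h1 : r ^ k ∣ Nat.card (D.diagonalSubgroup F) :=
    hk ▸ Subgroup.card_dvd_of_le fun x hx => hx.1
  have hk1 : k ≤ w := (padicValNat_dvd_iff_le Nat.card_pos.ne').mp h1
  obtain ⟨P⟩ := (Sylow.nonempty : Nonempty (Sylow r (D.diagonalSubgroup F)))
  have hP : Nat.card P = r ^ w := by
    rw [P.card_eq_multiplicity, Nat.factorization_def _ hr]
  have h2 : (P : Subgroup (D.diagonalSubgroup F)).map (D.diagonalSubgroup F).subtype ≤ torusPart (F := F) C r := by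
    rintro _ ⟨x, hx, rfl⟩
    refine ⟨x.2, ?_⟩
    have h := pow_card_eq_one' (x := (⟨x, hx⟩ : (P : Subgroup (D.diagonalSubgroup F))))
    rw [hP] at h
    exact congrArg (fun y : (P : Subgroup (D.diagonalSubgroup F)) => ((y : D.diagonalSubgroup F) : GL D.Idx F)) h
  have h3 := Subgroup.card_dvd_of_le h2
  rw [Subgroup.card_map_of_injective (Subgroup.subtype_injective _), hk] at h3
  have hk2 : w ≤ k := by
    have : r ^ w ∣ r ^ k := by rw [← hP]; exact h3
    exact (Nat.pow_dvd_pow_iff_le_right hr.one_lt).mp this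
  rw [hk, le_antisymm hk1 hk2]

/-- Every root is nontrivial on the `r`-part of the torus. -/
theorem torusPart_regular (hreg : ∀ s < D.nroots, ∃ i < D.rank, ¬ (r : ℤ) ∣ D.cartan i s)
    (hF : r ∣ Fintype.card F - 1) {s : ℕ} (hs : s < D.nroots) :
    ∃ t ∈ torusPart (F := F) C r, ∀ χ : ℕ → F, (t : Matrix D.Idx D.Idx F) = dMat D χ → χ s ≠ 1 := by
  classical
  obtain ⟨i, hi, hdiv⟩ := hreg s hs
  obtain ⟨ζ, hζ⟩ := exists_prime_orderOf_dvd_card r (G := Fˣ) (by rwa [Fintype.card_units])
  have hζ0 : (ζ : F) ≠ 0 := ζ.ne_zero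
  set t := C.hu (D.simple i) (ζ : F) with ht
  have hT : t ∈ D.diagonalSubgroup F := C.hu_simple_mem_diagonal (C.simple_lt i hi) hζ0
  have het : (t : Matrix D.Idx D.Idx F) = dMat D (cartChar D i (ζ : F)) := by
    rw [ht, Cert.coe_hu, C.hMat_simple hi hζ0]
  have ht1 : t ^ r = 1 := by
    refine Units.ext ?_
    rw [Units.val_pow_eq_pow_val, het, dMat_pow, Units.val_one, ← dMat_one]
    refine dMat_congr fun x _ => ?_
    simp only [Pi.pow_apply, cartChar, Pi.one_apply]
    rw [← zpow_natCast, zpow_comm, zpow_natCast, ← Units.val_pow_eq_pow_val, ← hζ, pow_orderOf_eq_one,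
      Units.val_one, one_zpow]
  have hsd : (⟨s, hs⟩ : Fin D.nroots).val = s := rfl
  refine ⟨t, ⟨hT, ?_⟩, fun χ hχ h1 => hdiv ?_⟩
  · rcases Nat.eq_zero_or_pos (padicValNat r (Nat.card (D.diagonalSubgroup F))) with h0 | hpos
    · have hdvd : orderOf t ∣ Nat.card (D.diagonalSubgroup F) := by
        rw [show orderOf t = orderOf (⟨t, hT⟩ : D.diagonalSubgroup F) from (Subgroup.orderOf_mk t hT).symm]
        exact orderOf_dvd_natCard _
      rcases (Nat.dvd_prime (Fact.out : r.Prime)).mp (orderOf_dvd_of_pow_eq_one ht1) with h | h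
      · rw [orderOf_eq_one_iff.mp h, one_pow]
      · exact absurd (h ▸ hdvd) fun hd => (dvd_iff_padicValNat_ne_zero Nat.card_pos.ne').mp hd h0
    · obtain ⟨k, hk⟩ := Nat.exists_eq_succ_of_ne_zero hpos.ne'
      rw [hk, pow_succ', pow_mul, ht1, one_pow]
  · have h2 := dMat_entry het hs
    rw [dMat_entry hχ hs, h1] at h2
    have h3 : ζ ^ D.cartan i s = 1 := Units.ext (by rw [Units.val_zpow_eq_zpow_val, Units.val_one]; exact h2.symm)
    have := orderOf_dvd_iff_zpow_eq_one.mpr h3
    rwa [hζ] at this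

/-- An element of `U` centralising the `r`-part of the torus is trivial. -/
theorem eq_one_of_commute (hreg : ∀ s < D.nroots, ∃ i < D.rank, ¬ (r : ℤ) ∣ D.cartan i s)
    (hF : r ∣ Fintype.card F - 1) {u : GL D.Idx F} (hu : u ∈ D.posUnipotent F)
    (hc : ∀ t ∈ torusPart (F := F) C r, t * u * t⁻¹ = u) : u = 1 := by
  rw [← Cert.span_pos] at hu
  obtain ⟨f, -, rfl⟩ := C.exists_prodU C.closedSet_pos hu
  have key : ∀ s, D.IsPosRoot s → f s = 0 := by
    intro s hs
    obtain ⟨t, ht, htne⟩ := torusPart_regular C r hreg hF hs.1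
    obtain ⟨χ, hχ, -, e⟩ := C.diagonal_char ((mem_torusPart (F := F) C r).mp ht).1
    have h := hc t ht
    rw [diag_conj_prodU C hχ e] at h
    by_contra h0
    exact htne χ e ((mul_eq_right₀ h0).mp (C.prodU_inj h s hs))
  rw [← C.prodU_zero, Cert.prodU, Cert.prodU]
  congr 1
  exact List.map_congr_left fun s hs => by rw [key s ((Cert.mem_posRoots).mp hs)]

/-- The elements normalising the `r`-part of the torus are monomial. -/
theorem monomial_of_normalizes {M : CoxeterMatrix (Fin D.rank)} (hM : CoxOK D M)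
    (hreg : ∀ s < D.nroots, ∃ i < D.rank, ¬ (r : ℤ) ∣ D.cartan i s)
    (hF : r ∣ Fintype.card F - 1) {g : GL D.Idx F} (hg : g ∈ D.group F)
    (hn : ∀ t, t ∈ torusPart (F := F) C r ↔ g * t * g⁻¹ ∈ torusPart (F := F) C r) :
    g ∈ D.monomialSubgroup F := by
  obtain ⟨L, a, ha, h, hh, u, hu, e⟩ := exists_canon C hM hg
  set n := C.nWordElt F (L.map Fin.val) with hnn
  have hnN : n ∈ D.monomialSubgroup F := C.nWordElt_mem (C.fin_word_lt L)
  have huU : u ∈ D.posUnipotent F := C.span_mono (fun x hx => hx.1) hu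
  have key : ∀ t ∈ torusPart (F := F) C r, t * u * t⁻¹ = u ∧ g * t * g⁻¹ * a * (g * t * g⁻¹)⁻¹ = a := by
    intro t ht
    have ht' := (hn t).mp ht
    set t' := g * t * g⁻¹ with htt
    have hT : t ∈ D.diagonalSubgroup F := ((mem_torusPart (F := F) C r).mp ht).1
    have hT' : t' ∈ D.diagonalSubgroup F := ((mem_torusPart (F := F) C r).mp ht').1
    have h1 : t' * a * t'⁻¹ ∈ D.posUnipotent F :=
      (Subgroup.mem_normalizer_iff.mp (C.posUnipotent_normalised hT') a).mp ha
    have h2 : t⁻¹ * u * t ∈ spanGroup D F (Inverts D F n) := by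
      have := (Subgroup.mem_normalizer_iff.mp
        (C.diag_normalises (Inverts D F n) (fun x hx => hx.1.1) (inv_mem hT)) u).mp hu
      rwa [inv_inv] at this
    have e1 : t' * a * t'⁻¹ * (t' * h) * n * u = a * (h * (n * t * n⁻¹)) * n * (t⁻¹ * u * t) := by
      calc t' * a * t'⁻¹ * (t' * h) * n * u = t' * (a * h * n * u) := by group
        _ = t' * g := by rw [← e]
        _ = g * t := by rw [htt]; group
        _ = a * h * n * u * t := by rw [← e]
        _ = _ := by group
    obtain ⟨r1, -, r3⟩ := canon_unique C h1 ha (mul_mem hT' hh)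
      (mul_mem hh (C.monomial_conj_diagonal hnN hT)) hu h2 e1
    refine ⟨?_, r1⟩
    conv_lhs => rw [r3]
    group
  have hu1 : u = 1 := eq_one_of_commute C r hreg hF huU fun t ht => (key t ht).1
  have ha1 : a = 1 := eq_one_of_commute C r hreg hF ha fun t ht => by
    have h0 : g⁻¹ * t * g ∈ torusPart (F := F) C r := (hn _).mpr (by
      rw [show g * (g⁻¹ * t * g) * g⁻¹ = t by group]; exact ht)
    have := (key _ h0).2
    rwa [show g * (g⁻¹ * t * g) * g⁻¹ = t by group] at this
  rw [e, hu1, ha1, mul_one, one_mul]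
  exact mul_mem (C.diagonal_le_monomial hh) hnN

/-- Some power prime to `r` sends the monomial subgroup into the diagonal one. -/
theorem exists_pow_mem_diagonal
    (hval : padicValNat r (Nat.card (D.group F)) = padicValNat r (Nat.card (D.diagonalSubgroup F))) :
    ∃ N : ℕ, ¬ r ∣ N ∧ ∀ n ∈ D.monomialSubgroup F, n ^ N ∈ D.diagonalSubgroup F := by
  have hr : r.Prime := Fact.out
  haveI := C.diagonal_normal (F := F)
  set H := (D.diagonalSubgroup F).subgroupOf (D.monomialSubgroup F) with hH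
  refine ⟨H.index, fun hdvd => ?_, fun n hn => ?_⟩
  · have h1 : Nat.card H = Nat.card (D.diagonalSubgroup F) :=
      Nat.card_congr (Subgroup.subgroupOfEquivOfLe C.diagonal_le_monomial).toEquiv
    have h2 : Nat.card H * H.index = Nat.card (D.monomialSubgroup F) := H.card_mul_index
    have hi : H.index ≠ 0 := fun h => by
      rw [h, mul_zero] at h2; exact Nat.card_pos.ne' h2.symm
    have h3 : padicValNat r (Nat.card (D.monomialSubgroup F)) ≤ padicValNat r (Nat.card (D.group F)) :=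
      (padicValNat_dvd_iff_le Nat.card_pos.ne').mp
        (pow_padicValNat_dvd.trans (Subgroup.card_dvd_of_le C.monomial_le_group))
    rw [← h2, padicValNat.mul Nat.card_pos.ne' hi, h1, hval] at h3
    exact (dvd_iff_padicValNat_ne_zero hi).mp hdvd (by omega)
  · have h := H.pow_index_mem ⟨n, hn⟩
    exact Subgroup.mem_subgroupOf.mp h

end Cfsg.Agent.Chars2.Homocyclic
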