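import Cfsg.Agent.Chars2.Homocyclic.Frob
import Cfsg.Agent.Chars2.Homocyclic.Torus

/-!
Elements of `r`-power order fixed by the Frobenius endomorphism lie in the group over the small field.
-/

set_option autoImplicit false
set_option linter.unusedSectionVars false

universe u v

namespace Cfsg.Agent.Chars2.Homocyclic

open Cfsg.Lie Cfsg.Agent.Chev
open scoped Matrix MatrixGroups

variable {D : ChevalleyDatum} {E : Type u} [Field E] [Fintype E] {K : Type v} [Field K] [Fintype K]

/-- The fixed points of `t ↦ t ^ q` are the elements of the subfield with `q` elements. -/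
theorem exists_preimage (ι : E →+* K) {t : K} (ht : t ^ Fintype.card E = t) : ∃ s, ι s = t := by
  classical
  have hq : 1 < Fintype.card E := Fintype.one_lt_card
  set f : Polynomial K := Polynomial.X ^ Fintype.card E - Polynomial.X with hf
  have hf0 : f ≠ 0 := FiniteField.X_pow_card_sub_X_ne_zero K hq
  have hmem : ∀ x : K, x ^ Fintype.card E = x → x ∈ f.roots.toFinset := fun x hx => by
    rw [Multiset.mem_toFinset, Polynomial.mem_roots hf0]
    simp [hf, hx]
  have hsub : Finset.univ.image ι ⊆ f.roots.toFinset := by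
    intro x hx
    obtain ⟨s, -, rfl⟩ := Finset.mem_image.mp hx
    exact hmem _ (by rw [← map_pow, FiniteField.pow_card])
  have hcard : f.roots.toFinset.card ≤ (Finset.univ.image ι).card := by
    rw [Finset.card_image_of_injective _ ι.injective, Finset.card_univ]
    calc f.roots.toFinset.card ≤ Multiset.card f.roots := Multiset.toFinset_card_le _
      _ ≤ f.natDegree := Polynomial.card_roots' f
      _ = Fintype.card E := FiniteField.X_pow_card_sub_X_natDegree_eq K hq
  have h := hmem t ht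
  rw [← Finset.eq_of_subset_of_card_le hsub hcard] at h
  obtain ⟨s, -, hs⟩ := Finset.mem_image.mp h
  exact ⟨s, hs⟩

variable (C₀ : Cert.{u} D) (C : Cert.{v} D) (ι : E →+* K) (φ : K →+* K)
  (hφ : ∀ t, φ t = t ^ Fintype.card E)
include C₀ C ι hφ

theorem xu_mem_small {r : ℕ} {t : K} (ht : φ t = t) : C.xu r t ∈ (D.group E).map (gmap D ι) := by
  obtain ⟨s, rfl⟩ := exists_preimage ι ((hφ t).symm.trans ht)
  exact ⟨C₀.xu r s, C₀.xu_mem_group r s, gmap_xu C₀ C ι r s⟩

theorem prodU_mem_small {f : ℕ → K} (hf : ∀ s, D.IsPosRoot s → φ (f s) = f s) :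
    C.prodU f ∈ (D.group E).map (gmap D ι) := by
  rw [Cert.prodU, Cert.wu]
  refine Subgroup.list_prod_mem _ fun x hx => ?_
  simp only [List.map_map, List.mem_map, Function.comp_apply] at hx
  obtain ⟨s, hs, rfl⟩ := hx
  exact xu_mem_small C₀ C ι φ hφ (hf s (Cert.mem_posRoots.mp hs))

theorem pos_mem_small {u : GL D.Idx K} (hu : u ∈ D.posUnipotent K) (hfix : gmap D φ u = u) :
    u ∈ (D.group E).map (gmap D ι) := by
  rw [← Cert.span_pos] at hu
  obtain ⟨f, -, rfl⟩ := C.exists_prodU C.closedSet_pos hu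
  rw [gmap_prodU C C] at hfix
  exact prodU_mem_small C₀ C ι φ hφ (C.prodU_inj hfix)

/-- A fixed diagonal element normalises the small group. -/
theorem diag_conj_small {h : GL D.Idx K} (hh : h ∈ D.diagonalSubgroup K) (hfix : gmap D φ h = h)
    {x : GL D.Idx K} (hx : x ∈ (D.group E).map (gmap D ι)) :
    h * x * h⁻¹ ∈ (D.group E).map (gmap D ι) := by
  obtain ⟨χ, hχ, -, e⟩ := C.diagonal_char hh
  obtain ⟨g, hg, rfl⟩ := hx
  have key : D.group E ≤ (((D.group E).map (gmap D ι)).comap
      ((MulAut.conj h).toMonoidHom.comp (gmap D ι))) := by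
    conv_lhs => rw [C₀.group_eq_closure]
    rw [Subgroup.closure_le]
    rintro _ ⟨r, hr, t, rfl⟩
    show h * gmap D ι (C₀.xu r t) * h⁻¹ ∈ (D.group E).map (gmap D ι)
    rw [gmap_xu C₀ C]
    have hc : h * C.xu r (ι t) = C.xu r (χ r * ι t) * h :=
      Units.ext (by simp [e, C.dMat_conj hχ hr (ι t)])
    rw [hc, mul_inv_cancel_right]
    refine xu_mem_small C₀ C ι φ hφ ?_
    have hχr : φ (χ r) = χ r := by
      have h2 := congrArg (fun g : GL D.Idx K =>
        (g : Matrix D.Idx D.Idx K) (Sum.inr ⟨r, hr⟩) (Sum.inr ⟨r, hr⟩)) hfix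
      simpa [coe_gmap, dMat_entry e hr] using h2
    rw [map_mul, hχr, hφ (ι t), ← map_pow, FiniteField.pow_card]
  exact key hg

/-- The fixed part of the torus has order dividing `(q - 1) ^ l`. -/
theorem card_fixed_diag_dvd :
    Nat.card ↥(D.diagonalSubgroup K ⊓ (gmap D φ).eqLocus (MonoidHom.id _)) ∣
      (Fintype.card E - 1) ^ D.rank := by
  classical
  set B := D.diagonalSubgroup K ⊓ (gmap D φ).eqLocus (MonoidHom.id _) with hB
  let em : (Fin D.rank → Eˣ) →* (Fin D.rank → Kˣ) :=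
    MonoidHom.mk' (fun c j => Units.map (ι : E →* K) (c j)) fun a b => by funext j; simp
  have hem : Function.Injective em := fun a b h => funext fun j =>
    Units.map_injective (f := (ι : E →* K)) ι.injective (congrFun h j)
  have hne : ∀ (b : B) (j : Fin D.rank),
      ((b : GL D.Idx K) : Matrix D.Idx D.Idx K) (Sum.inr ⟨D.simple j, C.simple_lt j j.isLt⟩)
        (Sum.inr ⟨D.simple j, C.simple_lt j j.isLt⟩) ≠ 0 := by
    intro b j
    obtain ⟨χ, -, hχ0, e⟩ := C.diagonal_char b.2.1
    rw [dMat_entry e]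
    exact hχ0 _
  let ψ : B →* (Fin D.rank → Kˣ) :=
    MonoidHom.mk' (fun b j => Units.mk0 _ (hne b j)) fun b b' => by
      funext j
      refine Units.ext ?_
      obtain ⟨χ, -, -, e⟩ := C.diagonal_char b.2.1
      obtain ⟨χ', -, -, e'⟩ := C.diagonal_char b'.2.1
      have e'' : ((b * b' : B) : GL D.Idx K) = (b : GL D.Idx K) * (b' : GL D.Idx K) := rfl
      simp only [Units.val_mk0, Pi.mul_apply, Units.val_mul]
      rw [dMat_entry e (C.simple_lt j j.isLt), dMat_entry e' (C.simple_lt j j.isLt)]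
      refine dMat_entry (χ := χ * χ') ?_ (C.simple_lt j j.isLt)
      rw [Subgroup.coe_mul, Units.val_mul, e, e', dMat_mul]
  have hinj : Function.Injective ψ := by
    rw [injective_iff_map_eq_one]
    intro b hb
    obtain ⟨c, hc, eb⟩ := C.mem_diagonal_iff.mp b.2.1
    have hb' : ∀ j : Fin D.rank, (∏ k ∈ Finset.range D.rank, cartChar D k (c k) (D.simple j)) = 1 := by
      intro j
      have h1 := congrArg (fun v : Fin D.rank → Kˣ => (v j : K)) hb
      simp only [ψ, MonoidHom.mk'_apply, Units.val_mk0, Pi.one_apply, Units.val_one] at h1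
      rw [eb] at h1
      rwa [dMat_entry (C.coe_torusElt hc) (C.simple_lt j j.isLt)] at h1
    refine Subtype.ext (Units.ext ?_)
    rw [eb, C.coe_torusElt hc]
    show _ = (1 : Matrix D.Idx D.Idx K)
    rw [← dMat_one]
    refine dMat_congr fun s hs => ?_
    rw [C.char_eq_prod hc hs, Pi.one_apply]
    exact Finset.prod_eq_one fun j _ => by rw [hb' j, one_zpow]
  have hle : ψ.range ≤ em.range := by
    rintro _ ⟨b, rfl⟩
    have hfix : gmap D φ (b : GL D.Idx K) = b := b.2.2
    choose s hs using fun j : Fin D.rank => exists_preimage ι (t :=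
      ((b : GL D.Idx K) : Matrix D.Idx D.Idx K) (Sum.inr ⟨D.simple j, C.simple_lt j j.isLt⟩)
        (Sum.inr ⟨D.simple j, C.simple_lt j j.isLt⟩)) (by
          rw [← hφ]
          exact congrArg (fun g : GL D.Idx K => (g : Matrix D.Idx D.Idx K) _ _) hfix)
    refine ⟨fun j => Units.mk0 (s j) fun h0 => hne b j (by rw [← hs j, h0, map_zero]), ?_⟩
    funext j
    exact Units.ext (hs j)
  have h := Subgroup.card_dvd_of_le hle
  rw [← Nat.card_congr (MonoidHom.ofInjective hinj).toEquiv, ← Nat.card_congr (MonoidHom.ofInjective hem).toEquiv,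
    Nat.card_fun, Nat.card_units, Nat.card_fin, Nat.card_eq_fintype_card (α := E)] at h
  exact h

/-- A fixed element of `r`-power order is defined over the small field. -/
theorem mem_small_of_fixed {M : CoxeterMatrix (Fin D.rank)} (hM : CoxOK D M) {r : ℕ} [Fact r.Prime]
    {e : ℕ} (he : ¬ r ∣ e)
    (hT : e * Nat.card (D.diagonalSubgroup E) = (Fintype.card E - 1) ^ D.rank)
    {g : GL D.Idx K} (hg : g ∈ D.group K) (hfix : gmap D φ g = g) {k : ℕ} (hk : g ^ r ^ k = 1) :
    g ∈ (D.group E).map (gmap D ι) := by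
  classical
  set G₀ := (D.group E).map (gmap D ι) with hG₀
  obtain ⟨L, a, ha, h, hh, u, hu, eg⟩ := exists_canon C hM hg
  set n := C.nWordElt K (L.map Fin.val) with hn
  have hn0 : n ∈ G₀ := ⟨C₀.nWordElt E (L.map Fin.val),
    C₀.monomial_le_group (C₀.nWordElt_mem (C₀.fin_word_lt L)), gmap_nWordElt C₀ C ι _⟩
  have hnf : gmap D φ n = n := gmap_nWordElt C C φ _
  have e1 : gmap D φ a * gmap D φ h * n * gmap D φ u = a * h * n * u := by
    have := congrArg (gmap D φ) eg
    rw [map_mul, map_mul, map_mul, hfix, hnf, eg] at this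
    exact this.symm
  obtain ⟨fa, fh, fu⟩ := canon_unique C (map_pos_le φ ⟨a, ha, rfl⟩) ha (map_diagonal_le φ ⟨h, hh, rfl⟩) hh
    (map_span_le _ φ ⟨u, hu, rfl⟩) hu e1
  have ha0 : a ∈ G₀ := pos_mem_small C₀ C ι φ hφ ha fa
  have hu0 : u ∈ G₀ := pos_mem_small C₀ C ι φ hφ (C.span_mono (fun x hx => hx.1) hu) fu
  -- `g = g₁ * h`
  set g₁ := a * (h * (n * u) * h⁻¹) with hg₁
  have hg₁0 : g₁ ∈ G₀ := mul_mem ha0 (diag_conj_small C₀ C ι φ hφ hh fh (mul_mem hn0 hu0))
  have egh : g = g₁ * h := by rw [eg, hg₁]; group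
  have hpow : ∀ j : ℕ, ∃ x ∈ G₀, g ^ j = x * h ^ j := by
    intro j
    induction j with
    | zero => exact ⟨1, one_mem _, by simp⟩
    | succ j ih =>
      obtain ⟨x, hx, ex⟩ := ih
      refine ⟨x * (h ^ j * g₁ * (h ^ j)⁻¹), mul_mem hx (diag_conj_small C₀ C ι φ hφ (pow_mem hh j)
        (by rw [map_pow, fh]) hg₁0), ?_⟩
      rw [pow_succ g, ex, egh, pow_succ h]; group
  -- `h ^ e` lies in the small group
  set B := D.diagonalSubgroup K ⊓ (gmap D φ).eqLocus (MonoidHom.id _) with hB
  set A := (D.diagonalSubgroup E).map (gmap D ι) with hA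
  have hAB : A ≤ B := le_inf (map_diagonal_le ι) (by
    rintro _ ⟨x, -, rfl⟩
    refine Units.ext (Matrix.ext fun i j => ?_)
    show φ (ι ((x : Matrix D.Idx D.Idx E) i j)) = ι ((x : Matrix D.Idx D.Idx E) i j)
    rw [hφ, ← map_pow, FiniteField.pow_card])
  haveI : (A.subgroupOf B).Normal := ⟨fun x hx y => by
    have hc : y * x = x * y := Subtype.ext (C.diagonal_comm y.2.1 x.2.1)
    rwa [hc, mul_inv_cancel_right]⟩
  have hcardA : Nat.card (A.subgroupOf B) = Nat.card (D.diagonalSubgroup E) := by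
    rw [Nat.card_congr (Subgroup.subgroupOfEquivOfLe hAB).toEquiv,
      Subgroup.card_map_of_injective (gmap_injective ι)]
  have hidx : (A.subgroupOf B).index ∣ e := by
    have h1 := card_fixed_diag_dvd C₀ C ι φ hφ
    rw [← hT, ← hB, ← (A.subgroupOf B).card_mul_index, hcardA, mul_comm e] at h1
    exact Nat.dvd_of_mul_dvd_mul_left Nat.card_pos h1
  have hhB : h ∈ B := ⟨hh, fh⟩
  have hhe : h ^ e ∈ G₀ := by
    obtain ⟨c, hc⟩ := hidx
    have h1 : (⟨h, hhB⟩ : B) ^ e ∈ A.subgroupOf B := by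
      rw [hc, pow_mul]; exact pow_mem (Subgroup.pow_index_mem _ _) c
    exact Subgroup.map_mono C₀.diagonal_le_group (Subgroup.mem_subgroupOf.mp h1)
  obtain ⟨x, hx, ex⟩ := hpow e
  have hge : g ^ e ∈ G₀ := ex ▸ mul_mem hx hhe
  have hcop : (r ^ k).Coprime e := Nat.Coprime.pow_left k (((Fact.out : r.Prime).coprime_iff_not_dvd).mpr he)
  have := Nat.Coprime.coprime_dvd_left (orderOf_dvd_of_pow_eq_one hk) hcop
  obtain ⟨j, hj⟩ := exists_pow_eq_self_of_coprime this.symm
  rw [← hj]
  exact pow_mem hge j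

end Cfsg.Agent.Chars2.Homocyclic
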