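import Cfsg.Agent.Chev.Bruhat

/-!
Ring homomorphisms act on Chevalley groups entrywise.
-/

set_option autoImplicit false

universe u v

namespace Cfsg.Agent.Chars2.Homocyclic

open Cfsg.Lie Cfsg.Agent.Chev
open scoped Matrix MatrixGroups

variable {D : ChevalleyDatum} {E : Type u} [Field E] {K : Type v} [Field K]

/-- Entrywise action of a ring homomorphism. -/
def gmap (D : ChevalleyDatum) (f : E →+* K) : GL D.Idx E →* GL D.Idx K :=
  Matrix.GeneralLinearGroup.map f

theorem coe_gmap (f : E →+* K) (g : GL D.Idx E) :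
    (gmap D f g : Matrix D.Idx D.Idx K) = (g : Matrix D.Idx D.Idx E).map f := rfl

theorem gmap_injective (f : E →+* K) : Function.Injective (gmap D f) := fun a b h => by
  refine Units.ext (Matrix.ext fun i j => f.injective ?_)
  have := congrArg (fun g : GL D.Idx K => (g : Matrix D.Idx D.Idx K) i j) h
  simpa [coe_gmap] using this

theorem gmap_comp {L : Type*} [Field L] (f : E →+* K) (g : K →+* L) (x : GL D.Idx E) :
    gmap D g (gmap D f x) = gmap D (g.comp f) x := rfl

theorem xMat_map (f : E →+* K) (r : Fin D.nroots) (t : E) :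
    (D.xMat E r t).map f = D.xMat K r (f t) := by
  ext i j
  rcases j with j | j <;> rcases i with i | i <;>
    simp only [ChevalleyDatum.xMat, Matrix.map_apply, Matrix.of_apply, apply_ite f, map_neg, map_mul,
      map_intCast, map_zero, map_one, map_pow, map_add, map_list_sum, List.map_map, Function.comp_def]

theorem x_map (f : E →+* K) (r : ℕ) (t : E) : (D.x E r t).map f = D.x K r (f t) := by
  unfold ChevalleyDatum.x
  split
  · exact xMat_map f _ t
  · exact Matrix.map_one _ (map_zero f) (map_one f)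

theorem wordMat_map (f : E →+* K) (L : List (ℕ × E)) :
    (D.wordMat E L).map f = D.wordMat K (L.map fun p => (p.1, f p.2)) := by
  induction L with
  | nil => exact Matrix.map_one _ (map_zero f) (map_one f)
  | cons p L ih => rw [wordMat_cons, List.map_cons, wordMat_cons, Matrix.map_mul, x_map, ih]

theorem nMat_map (f : E →+* K) (r : ℕ) (t : E) : (D.nMat E r t).map f = D.nMat K r (f t) := by
  rw [ChevalleyDatum.nMat, wordMat_map, ChevalleyDatum.nMat]
  simp [ChevalleyDatum.nWord, map_neg, map_inv₀]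

theorem hMat_map (f : E →+* K) (r : ℕ) (t : E) : (D.hMat E r t).map f = D.hMat K r (f t) := by
  rw [ChevalleyDatum.hMat, wordMat_map, ChevalleyDatum.hMat]
  simp [ChevalleyDatum.hWord, ChevalleyDatum.nWord, map_neg, map_inv₀, map_one]

theorem dMat_map (f : E →+* K) (χ : ℕ → E) : (dMat D χ).map f = dMat D fun s => f (χ s) := by
  rw [dMat, Matrix.diagonal_map (map_zero f)]
  unfold dMat
  congr 1
  funext x
  rcases x with k | k <;> simp

theorem gmap_xu (C : Cert.{u} D) (C' : Cert.{v} D) (f : E →+* K) (r : ℕ) (t : E) :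
    gmap D f (C.xu r t) = C'.xu r (f t) := Units.ext (x_map f r t)

theorem gmap_nu (C : Cert.{u} D) (C' : Cert.{v} D) (f : E →+* K) (r : ℕ) (t : E) :
    gmap D f (C.nu r t) = C'.nu r (f t) := Units.ext (by rw [coe_gmap, Cert.coe_nu, nMat_map, Cert.coe_nu])

theorem gmap_nWordElt (C : Cert.{u} D) (C' : Cert.{v} D) (f : E →+* K) (L : List ℕ) :
    gmap D f (C.nWordElt E L) = C'.nWordElt K L := by
  induction L with
  | nil => exact map_one _
  | cons a L ih => rw [C.nWordElt_cons, C'.nWordElt_cons, map_mul, ih, gmap_nu C C', map_one]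

theorem map_group_le (f : E →+* K) : (D.group E).map (gmap D f) ≤ D.group K := by
  rw [ChevalleyDatum.group, MonoidHom.map_closure]
  refine (Subgroup.closure_le _).mpr ?_
  rintro _ ⟨g, ⟨r, t, hg⟩, rfl⟩
  exact Subgroup.subset_closure ⟨r, f t, by rw [coe_gmap, hg, xMat_map]⟩

theorem map_diagonal_le (f : E →+* K) :
    (D.diagonalSubgroup E).map (gmap D f) ≤ D.diagonalSubgroup K := by
  rw [ChevalleyDatum.diagonalSubgroup, MonoidHom.map_closure]
  refine (Subgroup.closure_le _).mpr ?_
  rintro _ ⟨g, ⟨r, t, hr, ht, hg⟩, rfl⟩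
  exact Subgroup.subset_closure
    ⟨r, f t, hr, fun h => ht ((map_eq_zero f).mp h), by rw [coe_gmap, hg, hMat_map]⟩

theorem map_pos_le (f : E →+* K) : (D.posUnipotent E).map (gmap D f) ≤ D.posUnipotent K := by
  rw [ChevalleyDatum.posUnipotent, MonoidHom.map_closure]
  refine (Subgroup.closure_le _).mpr ?_
  rintro _ ⟨g, ⟨r, t, hr, hg⟩, rfl⟩
  exact Subgroup.subset_closure ⟨r, f t, hr, by rw [coe_gmap, hg, x_map]⟩

theorem map_span_le (P : ℕ → Prop) (f : E →+* K) :
    (spanGroup D E P).map (gmap D f) ≤ spanGroup D K P := by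
  rw [spanGroup, MonoidHom.map_closure]
  refine (Subgroup.closure_le _).mpr ?_
  rintro _ ⟨g, ⟨r, t, hr, hg⟩, rfl⟩
  exact Subgroup.subset_closure ⟨r, f t, hr, by rw [coe_gmap, hg, x_map]⟩

theorem gmap_prodU (C : Cert.{u} D) (C' : Cert.{v} D) (f : E →+* K) (t : ℕ → E) :
    gmap D f (C.prodU t) = C'.prodU fun r => f (t r) := by
  refine Units.ext ?_
  rw [coe_gmap, Cert.prodU, Cert.prodU, Cert.coe_wu, Cert.coe_wu, wordMat_map, List.map_map]
  rfl

end Cfsg.Agent.Chars2.Homocyclic
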